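import Cfsg.Agent.H88.RIM.T3
import Cfsg.Agent.H665.RIM.Defs
import Cfsg.Agent.H487.SchurPerfect
import Cfsg.Agent.S0713
import Cfsg.Agent.S0892

/-!
# S4816, module side of `A_8` at `p = 5` (helper354)

`ek_alt8`: `EK 5 S` for `S ≃* alternatingGroup (Fin 8)`.

Two Sylow `5`-subgroups generate `A_8` (Jordan), there are fewer than `5 ^ 4` of them, so `|V| ≤ 5 ^ 6`; the elementary
abelian group of order `8` and the element of order `7` normalising it give `|V| ≥ 5 ^ 7`.
-/

set_option autoImplicit false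

namespace Cfsg.Agent.H354.RIM

open Cfsg Cfsg.Agent.H88.RIM Cfsg.Agent.H665.RIM
open scoped Pointwise commutatorElement

universe u v

/-! ### permutations of eight points -/

/-- a five-cycle -/
def g1 : Equiv.Perm (Fin 8) := ⟨![1, 2, 3, 4, 0, 5, 6, 7], ![4, 0, 1, 2, 3, 5, 6, 7], by decide, by decide⟩

/-- a five-cycle -/
def g2 : Equiv.Perm (Fin 8) := ⟨![0, 1, 2, 4, 5, 6, 7, 3], ![0, 1, 2, 7, 3, 4, 5, 6], by decide, by decide⟩

/-- conjugates `g1` to `g2` -/
def hh : Equiv.Perm (Fin 8) := ⟨![3, 4, 5, 6, 7, 1, 0, 2], ![6, 5, 7, 0, 1, 2, 3, 4], by decide, by decide⟩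

/-- the three-cycle commuting with `g1` -/
def uu : Equiv.Perm (Fin 8) := ⟨![0, 1, 2, 3, 4, 6, 7, 5], ![0, 1, 2, 3, 4, 7, 5, 6], by decide, by decide⟩

/-- order seven -/
def yy : Equiv.Perm (Fin 8) := ⟨![0, 2, 4, 6, 3, 1, 7, 5], ![0, 5, 1, 4, 2, 7, 3, 6], by decide, by decide⟩

/-- the translations of `F_2^3` -/
def tr (a : Fin 8) : Equiv.Perm (Fin 8) := ⟨fun x => x ^^^ a, fun x => x ^^^ a, by
  revert a; decide, by revert a; decide⟩

theorem block_aux : ∀ B : Finset (Fin 8), (B.image g1 = B ∨ Disjoint (B.image g1) B) →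
    (B.image g2 = B ∨ Disjoint (B.image g2) B) →
    (B.image (g2 * g1 * g1 * g2) = B ∨ Disjoint (B.image (g2 * g1 * g1 * g2)) B) → B.card ≤ 1 ∨ B = Finset.univ := by
  decide +kernel

theorem trans_aux : ∀ x : Fin 8, ∃ a b : Fin 5, (g2 ^ (b : ℕ) * g1 ^ (a : ℕ)) 0 = x := by decide +kernel

theorem isPreprimitive_of {G : Subgroup (Equiv.Perm (Fin 8))} (h1 : g1 ∈ G) (h2 : g2 ∈ G) :
    MulAction.IsPreprimitive G (Fin 8) := by
  have h0 : ∀ x : Fin 8, ∃ g : G, g • (0 : Fin 8) = x := by
    intro x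
    obtain ⟨a, b, h⟩ := trans_aux x
    exact ⟨⟨g2 ^ (b : ℕ) * g1 ^ (a : ℕ), G.mul_mem (G.pow_mem h2 _) (G.pow_mem h1 _)⟩, h⟩
  have htr : MulAction.IsPretransitive G (Fin 8) := by
    refine ⟨fun x y => ?_⟩
    obtain ⟨a, ha⟩ := h0 x
    obtain ⟨b, hb⟩ := h0 y
    exact ⟨b * a⁻¹, by rw [← ha, ← hb, smul_smul, inv_mul_cancel_right]⟩
  refine { isTrivialBlock_of_isBlock := ?_ }
  intro B hB
  classical
  have key : ∀ g ∈ G, B.toFinset.image g = B.toFinset ∨ Disjoint (B.toFinset.image g) B.toFinset := by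
    intro g hg
    have h3 := hB.smul_eq_or_disjoint ⟨g, hg⟩
    have h4 : ((B.toFinset.image g : Finset (Fin 8)) : Set (Fin 8)) = (⟨g, hg⟩ : G) • B := by
      rw [Finset.coe_image, Set.coe_toFinset]
      rfl
    rcases h3 with h3 | h3
    · left
      apply Finset.coe_injective
      rw [h4, h3, Set.coe_toFinset]
    · right
      rw [← Finset.disjoint_coe, h4, Set.coe_toFinset]
      exact h3
  rcases block_aux B.toFinset (key g1 h1) (key g2 h2)
    (key _ (G.mul_mem (G.mul_mem (G.mul_mem h2 h1) h1) h2)) with h | h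
  · left
    rw [Finset.card_le_one_iff_subsingleton_coe] at h
    intro x hx y hy
    have := h.elim ⟨x, by simpa using hx⟩ ⟨y, by simpa using hy⟩
    exact congrArg Subtype.val this
  · right
    rw [← Set.coe_toFinset B, h, Finset.coe_univ]

theorem g1_isCycle : g1.IsCycle := by
  refine ⟨0, by decide, ?_⟩
  intro y hy
  have : ∀ y : Fin 8, g1 y ≠ y → ∃ i : Fin 5, (g1 ^ (i : ℕ)) 0 = y := by decide +kernel
  obtain ⟨i, hi⟩ := this y hy
  exact ⟨(i : ℕ), by rw [zpow_natCast]; exact hi⟩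

/-- two five-cycles generate -/
theorem alt_le {G : Subgroup (Equiv.Perm (Fin 8))} (h1 : g1 ∈ G) (h2 : g2 ∈ G) : alternatingGroup (Fin 8) ≤ G :=
  Cfsg.Agent.S0713.result G (isPreprimitive_of h1 h2) (p := 5) (by norm_num) (by norm_num) (by norm_num)
    g1_isCycle (by decide +kernel) h1

abbrev A8 := alternatingGroup (Fin 8)

def a1 : A8 := ⟨g1, by rw [Equiv.Perm.mem_alternatingGroup]; decide +kernel⟩
def a2 : A8 := ⟨g2, by rw [Equiv.Perm.mem_alternatingGroup]; decide +kernel⟩
def ah : A8 := ⟨hh, by rw [Equiv.Perm.mem_alternatingGroup]; decide +kernel⟩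
def au : A8 := ⟨uu, by rw [Equiv.Perm.mem_alternatingGroup]; decide +kernel⟩
def ay : A8 := ⟨yy, by rw [Equiv.Perm.mem_alternatingGroup]; decide +kernel⟩

theorem card_A8 : Nat.card A8 = 20160 := by
  have h : 2 * Nat.card A8 = Nat.card (Equiv.Perm (Fin 8)) := two_mul_nat_card_alternatingGroup (α := Fin 8)
  rw [Nat.card_perm, Nat.card_fin] at h
  have h8 : Nat.factorial 8 = 40320 := by decide
  omega

instance factFive : Fact (Nat.Prime 5) := ⟨by norm_num⟩

/-- the Sylow subgroup -/
theorem orderOf_a1 : orderOf a1 = 5 :=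
  orderOf_eq_prime (Subtype.ext (show g1 ^ 5 = 1 by decide +kernel)) (fun h => absurd (congrArg Subtype.val h)
    (show g1 ≠ 1 by decide +kernel))

theorem card_z1 : Nat.card (Subgroup.zpowers a1) = 5 := by rw [Nat.card_zpowers, orderOf_a1]

theorem isPGroup_z1 : IsPGroup 5 (Subgroup.zpowers a1) :=
  IsPGroup.of_card (n := 1) (by rw [card_z1, pow_one])

theorem index_z1 : (Subgroup.zpowers a1).index = 4032 := by
  have h := (Subgroup.zpowers a1).card_mul_index
  rw [card_z1, card_A8] at h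
  omega

def P5 : Sylow 5 A8 := isPGroup_z1.toSylow (by rw [index_z1]; norm_num)

theorem coe_P5 : (P5 : Subgroup A8) = Subgroup.zpowers a1 := rfl

theorem card_sylow_lt : Nat.card (Sylow 5 A8) < 625 := by
  have h1 := Sylow.card_eq_index_normalizer P5
  have h2 := card_sylow_modEq_one 5 A8
  set N : Subgroup A8 := Subgroup.normalizer ((P5 : Subgroup A8) : Set A8) with hN
  have h3 : a1 * au ∈ N := by
    have h4 : au * a1 = a1 * au := by
      apply Subtype.ext
      show uu * g1 = g1 * uu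
      decide +kernel
    refine N.mul_mem (Subgroup.le_normalizer (Subgroup.mem_zpowers a1)) ?_
    refine Subgroup.mem_normalizer_fintype fun n hn => ?_
    obtain ⟨i, rfl⟩ := Subgroup.mem_zpowers_iff.1 (show n ∈ Subgroup.zpowers a1 from hn)
    have h5 : au * a1 ^ i * au⁻¹ = a1 ^ i := by
      have : Commute au (a1 ^ i) := Commute.zpow_right h4 i
      rw [this.eq, mul_inv_cancel_right]
    rw [h5]
    exact hn
  have h5 : orderOf (⟨a1 * au, h3⟩ : N) = 15 := by
    rw [Subgroup.orderOf_mk]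
    have h6 : orderOf (a1 * au) = orderOf (g1 * uu) := (Subgroup.orderOf_coe (a1 * au)).symm
    rw [h6, orderOf_eq_iff (by norm_num)]
    refine ⟨by decide +kernel, ?_⟩
    intro m hm hm0
    have : ∀ m : Fin 15, 0 < (m : ℕ) → (g1 * uu) ^ (m : ℕ) ≠ 1 := by decide +kernel
    exact this ⟨m, hm⟩ hm0
  have h6 : 15 ∣ Nat.card N := h5 ▸ orderOf_dvd_natCard _
  have h7 := N.card_mul_index
  rw [card_A8] at h7
  obtain ⟨k, hk⟩ := h6
  have h8 : N.index ∣ 1344 := by
    refine ⟨k, ?_⟩
    rw [hk] at h7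
    have h9 : 15 * (N.index * k) = 15 * 1344 := by
      rw [← show 15 * k * N.index = 15 * (N.index * k) by ring, h7]
    exact (Nat.eq_of_mul_eq_mul_left (by norm_num) h9).symm
  rw [h1] at h2 ⊢
  have h9 : ∀ n ∈ Nat.divisors 1344, n ≡ 1 [MOD 5] → n < 625 := by decide +kernel
  exact h9 _ (Nat.mem_divisors.2 ⟨h8, by norm_num⟩) h2

/-- two Sylow subgroups generate -/
theorem sup_eq_top : (P5 : Subgroup A8) ⊔ MulAut.conj ah • (P5 : Subgroup A8) = ⊤ := by
  set D : Subgroup A8 := (P5 : Subgroup A8) ⊔ MulAut.conj ah • (P5 : Subgroup A8) with hD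
  have h1 : a1 ∈ D := (le_sup_left : (P5 : Subgroup A8) ≤ D) (Subgroup.mem_zpowers a1)
  have h2 : a2 ∈ D := by
    apply (le_sup_right : MulAut.conj ah • (P5 : Subgroup A8) ≤ D)
    refine ⟨a1, Subgroup.mem_zpowers a1, ?_⟩
    apply Subtype.ext
    show hh * g1 * hh⁻¹ = g2
    decide +kernel
  have h3 := alt_le (G := D.map (alternatingGroup (Fin 8)).subtype) ⟨a1, h1, rfl⟩ ⟨a2, h2, rfl⟩
  rw [Subgroup.eq_top_iff']
  intro x
  obtain ⟨y, hy, hyx⟩ := h3 x.2
  have : y = x := Subtype.ext hyx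
  exact this ▸ hy

/-- the elementary abelian group of order eight -/
def EE : Subgroup A8 where
  carrier := {g | ∃ a : Fin 8, (g : Equiv.Perm (Fin 8)) = tr a}
  one_mem' := ⟨0, by show (1 : Equiv.Perm (Fin 8)) = tr 0; decide +kernel⟩
  mul_mem' := by
    rintro x y ⟨a, ha⟩ ⟨b, hb⟩
    refine ⟨a ^^^ b, ?_⟩
    rw [Subgroup.coe_mul, ha, hb]
    clear ha hb
    revert a b
    decide +kernel
  inv_mem' := by
    rintro x ⟨a, ha⟩
    refine ⟨a, ?_⟩
    rw [Subgroup.coe_inv, ha]
    clear ha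
    revert a
    decide +kernel

theorem isPGroup_EE : IsPGroup 2 EE := by
  rintro ⟨x, a, ha⟩
  refine ⟨1, ?_⟩
  apply Subtype.ext
  apply Subtype.ext
  show (x : Equiv.Perm (Fin 8)) ^ 2 ^ 1 = 1
  rw [ha]
  clear ha
  revert a
  decide +kernel

theorem not_dvd_EE : ¬ 5 ∣ Nat.card EE := by
  intro h
  obtain ⟨n, hn⟩ := IsPGroup.iff_card.1 isPGroup_EE
  rw [hn] at h
  exact absurd ((by norm_num : Nat.Prime 5).dvd_of_dvd_pow h) (by norm_num)

section mod

variable {V : Type v} [AddCommGroup V] [Finite V]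

theorem card_pow (hV : ∀ v : V, 5 • v = 0) : ∃ d, Nat.card V = 5 ^ d := by
  let _ : Module (ZMod 5) V := AddCommGroup.zmodModule hV
  refine ⟨Module.finrank (ZMod 5) V, ?_⟩
  rw [Module.natCard_eq_pow_finrank (K := ZMod 5), Nat.card_zmod]

variable [DistribMulAction A8 V]

/-- the lower bound -/
theorem seven_le {d : ℕ} (hV : ∀ v : V, 5 • v = 0) (hd : Nat.card V = 5 ^ d)
    (hf : ∀ h : A8, (∀ v : V, h • v = v) → h = 1) : 7 ≤ d := by
  have hy7 : ay ^ 7 = 1 := Subtype.ext (show yy ^ 7 = 1 by decide +kernel)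
  have hy1 : ay ≠ 1 := fun h => absurd (congrArg Subtype.val h) (show yy ≠ 1 by decide +kernel)
  obtain ⟨v, hv0, hv⟩ := exists_fixed (V := V) (p := 5) (s := 7) (by norm_num) (by norm_num) hy7 EE
    (by
      rintro x ⟨a, ha⟩
      refine ⟨yy a, ?_⟩
      show yy * (x : Equiv.Perm (Fin 8)) * yy⁻¹ = _
      rw [ha]
      clear ha
      revert a
      decide +kernel)
    (by
      rintro x ⟨a, ha⟩ y ⟨b, hb⟩
      apply Subtype.ext
      show (x : Equiv.Perm (Fin 8)) * y = y * x
      rw [ha, hb]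
      clear ha hb
      revert a b
      decide +kernel) not_dvd_EE hV (fun h _ => hf h)
    ⟨⟨tr 1, by rw [Equiv.Perm.mem_alternatingGroup]; decide +kernel⟩, ⟨1, rfl⟩, fun h =>
      absurd (congrArg Subtype.val h) (show yy * tr 1 * yy⁻¹ ≠ tr 1 by decide +kernel)⟩
  have hp7 : Fact (Nat.Prime 7) := ⟨by norm_num⟩
  have ho : orderOf ay = 7 := orderOf_eq_prime hy7 hy1
  have hpg : IsPGroup 7 (Subgroup.zpowers ay) := IsPGroup.of_card (n := 1) (by rw [Nat.card_zpowers, ho, pow_one])
  have h1 := hpg.card_modEq_card_fixedPoints V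
  have h2 : Nat.card (MulAction.fixedPoints (Subgroup.zpowers ay) V) = Nat.card (fxV V (Subgroup.zpowers ay)) := by
    refine Nat.card_congr (Equiv.setCongr ?_)
    ext w
    constructor
    · intro h g hg
      exact h ⟨g, hg⟩
    · intro h g
      exact h g g.2
  have h3 : Nat.card (fxV V (Subgroup.zpowers ay)) ∣ 5 ^ d := hd ▸ AddSubgroup.card_addSubgroup_dvd_card _
  obtain ⟨c, hcd, hc⟩ := (Nat.dvd_prime_pow (by norm_num : Nat.Prime 5)).1 h3
  have h4 : c ≠ 0 := by
    rintro rfl
    rw [pow_zero] at hc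
    have h5 := (Nat.card_eq_one_iff_unique.1 hc).1
    have h6 : v ∈ fxV V (Subgroup.zpowers ay) := by
      intro g hg
      obtain ⟨i, rfl⟩ := Subgroup.mem_zpowers_iff.1 hg
      have h7 : Subgroup.zpowers ay ≤ MulAction.stabilizer A8 v := by
        rw [Subgroup.zpowers_le]
        exact hv
      exact h7 hg
    exact hv0 (congrArg Subtype.val (h5.elim ⟨v, h6⟩ 0))
  have h5 : c ≠ d := by
    rintro rfl
    apply hy1
    apply hf
    have h6 : fxV V (Subgroup.zpowers ay) = ⊤ := by
      apply AddSubgroup.eq_top_of_card_eq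
      rw [hc, hd]
    intro w
    have h7 : w ∈ fxV V (Subgroup.zpowers ay) := by rw [h6]; exact AddSubgroup.mem_top w
    exact h7 ay (Subgroup.mem_zpowers ay)
  rw [h2, hc, hd] at h1
  by_contra hcon
  push Not at hcon
  have key : ∀ c d : Fin 7, (c : ℕ) ≠ 0 → (c : ℕ) < d → ¬ 5 ^ (d : ℕ) ≡ 5 ^ (c : ℕ) [MOD 7] := by decide +kernel
  exact key ⟨c, by omega⟩ ⟨d, hcon⟩ h4 (show c < d by omega) h1

/-- **The module side.** -/
theorem core (hV : ∀ v : V, 5 • v = 0) (h0 : ∀ v : V, (∀ h : A8, h • v = v) → v = 0)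
    (hf : ∀ h : A8, (∀ v : V, h • v = v) → h = 1)
    (horb : ∀ v : V, ¬ 5 ∣ (MulAction.stabilizer A8 v).index) : False := by
  obtain ⟨d, hd⟩ := card_pow hV
  have h1 := seven_le hV hd hf
  have h2 := (index_le_card_sylow (V := V) P5 horb).trans_lt card_sylow_lt
  have h3 : (fxV V (P5 : Subgroup A8)).index ∣ 5 ^ d := hd ▸ AddSubgroup.index_dvd_card _
  obtain ⟨c, -, hc⟩ := (Nat.dvd_prime_pow (by norm_num : Nat.Prime 5)).1 h3
  rw [hc] at h2
  have h4 : c < 4 := (Nat.pow_lt_pow_iff_right (by norm_num : 1 < 5)).1 (h2.trans_eq (by norm_num))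
  have h5 := card_le_pow (V := V) h0 (P5 : Subgroup A8) (k := 1) (fun _ => ah) (by
    rw [ciSup_const]
    exact sup_eq_top)
  rw [hc, hd, ← pow_mul] at h5
  have h6 := (Nat.pow_le_pow_iff_right (by norm_num : 1 < 5)).1 h5
  omega

end mod

/-! ### the row -/

/-- **`EK` from the simple group**, if a perfect central extension has kernel of order at most two -/
theorem ek_of_two {S : Type u} [Group S] {p : ℕ}
    (h2 : ∀ (H : Type u) [Group H] [Finite H] (π : H →* S), Function.Surjective π → π.ker ≤ Subgroup.center H →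
      commutator H = ⊤ → Nat.card π.ker ≤ 2)
    (hno : ∀ (V : Type u) [AddCommGroup V] [Finite V] [DistribMulAction S V], (∀ v : V, p • v = 0) →
      (∀ v : V, (∀ h : S, h • v = v) → v = 0) → (∀ h : S, (∀ v : V, h • v = v) → h = 1) →
      (∀ v : V, ¬ p ∣ (MulAction.stabilizer S v).index) → False) : EK p S := by
  intro H V _ _ _ _ _ K N φ π hC hπ hker hcen
  have hperf : Group.IsPerfect H := ⟨hC.perf⟩
  have hKc : K ≤ Subgroup.center H := fun k hk =>
    Cfsg.Agent.H487.mem_center_of_commutator_mem_center hperf k fun h => hC.cen (hcen k hk h)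
  have hcard : Nat.card K ≤ 2 := by
    have := h2 H π hπ (by rw [hker]; exact hKc) hC.perf
    rwa [hker] at this
  have hNK : N = K := by
    apply Subgroup.eq_of_le_of_card_ge hC.NK
    have h6 : Nat.card N ≠ 1 := fun h => hC.Nne (Subgroup.card_eq_one.1 h)
    have h7 : 0 < Nat.card N := Nat.card_pos
    omega
  let e : H ⧸ π.ker ≃* S := QuotientGroup.quotientKerEquivOfSurjective π hπ
  let τ : H →* AddMonoid.End V := DistribMulAction.toAddMonoidEnd H V
  have hτk : π.ker ≤ τ.ker := by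
    intro x hx
    rw [hker, ← hNK] at hx
    rw [MonoidHom.mem_ker]
    apply AddMonoidHom.ext
    intro v
    exact (hC.ker x).2 hx v
  let ρ : S →* AddMonoid.End V := (QuotientGroup.lift π.ker τ hτk).comp e.symm.toMonoidHom
  have hρ : ∀ h : H, ρ (π h) = τ h := by
    intro h
    have : e.symm (π h) = (h : H ⧸ π.ker) := by
      rw [MulEquiv.symm_apply_eq]
      rfl
    change QuotientGroup.lift π.ker τ hτk (e.symm (π h)) = _
    rw [this]
    rfl
  let _ : DistribMulAction S V :=
    { smul := fun g w => ρ g w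
      one_smul := fun w => by change ρ 1 w = w; rw [map_one]; rfl
      mul_smul := fun a b w => by change ρ (a * b) w = ρ a (ρ b w); rw [map_mul]; rfl
      smul_zero := fun a => map_zero (ρ a)
      smul_add := fun a v w => map_add (ρ a) v w }
  have hsm : ∀ (h : H) (v : V), π h • v = h • v := by
    intro h v
    change ρ (π h) v = h • v
    rw [hρ]
    rfl
  refine hno V hC.exp ?_ ?_ ?_
  · intro v hv
    let W : AddSubgroup V :=
      { carrier := {w | ∀ h : H, h • w = w}
        zero_mem' := fun h => smul_zero h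
        add_mem' := fun {a b} ha hb h => by rw [smul_add, ha h, hb h]
        neg_mem' := fun {a} ha h => by rw [smul_neg, ha h] }
    have hW := hC.irr W (fun h w hw => by
      intro h'
      have h1 : h • w = w := hw h
      rw [h1]; exact hw h')
    have hvW : v ∈ W := fun h => by rw [← hsm]; exact hv (π h)
    rcases hW with hW | hW
    · rw [hW] at hvW
      exact AddSubgroup.mem_bot.1 hvW
    · exfalso
      apply hC.Kt
      rw [← hNK, Subgroup.eq_top_iff']
      intro h
      rw [← hC.ker h]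
      intro w
      have : w ∈ W := by rw [hW]; exact AddSubgroup.mem_top w
      exact this h
  · intro s hs
    obtain ⟨h, rfl⟩ := hπ s
    have h1 : h ∈ N := (hC.ker h).1 fun v => by rw [← hsm]; exact hs v
    rw [hNK, ← hker] at h1
    exact h1
  · intro v
    have h1 := hC.P1 v
    have h2 : MulAction.orbit S v = MulAction.orbit H v := by
      ext w
      constructor
      · rintro ⟨s, rfl⟩
        obtain ⟨h, rfl⟩ := hπ s
        exact ⟨h, (hsm h v).symm⟩
      · rintro ⟨h, rfl⟩
        exact ⟨π h, hsm h v⟩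
    rw [MulAction.index_stabilizer] at h1 ⊢
    rw [h2]
    exact h1

/-- **The module side of `A_8` at `5`** -/
theorem ek_alt8 {S : Type u} [Group S] (e : S ≃* alternatingGroup (Fin 8)) : EK 5 S := by
  apply ek_of_two
  · intro H _ _ π hπ hc hH
    exact Cfsg.Agent.S0892.result 8 (by norm_num) (by norm_num) (by norm_num) π.ker hc (by rw [hH]; exact le_top)
      ((QuotientGroup.quotientKerEquivOfSurjective π hπ).trans e)
  · intro V _ _ _ hV h0 hf horb
    let _ : DistribMulAction A8 V := DistribMulAction.compHom V e.symm.toMonoidHom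
    have hsm : ∀ (s : S) (v : V), e s • v = s • v := by
      intro s v
      change e.symm (e s) • v = s • v
      rw [e.symm_apply_apply]
    refine core hV ?_ ?_ ?_
    · intro v hv
      exact h0 v fun s => by rw [← hsm]; exact hv (e s)
    · intro g hg
      have h1 := hf (e.symm g) fun v => by rw [← hsm, e.apply_symm_apply]; exact hg v
      have h2 := congrArg e h1
      rwa [e.apply_symm_apply, map_one] at h2
    · intro v
      have h1 := horb v
      have h2 : MulAction.orbit A8 v = MulAction.orbit S v := by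
        ext w
        constructor
        · rintro ⟨g, rfl⟩
          exact ⟨e.symm g, rfl⟩
        · rintro ⟨s, rfl⟩
          exact ⟨e s, hsm s v⟩
      rw [MulAction.index_stabilizer] at h1 ⊢
      rw [h2]
      exact h1

end Cfsg.Agent.H354.RIM
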