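import Cfsg.Agent.H354.RIM.AltSixA
import Cfsg.Agent.H175.RIM.Red
import Cfsg.Agent.H306.RIM.Tool
import Cfsg.Agent.S2116

/-!
# S4816, module side of `A_6` at `p = 5` (helper354)

`ek_alt6`: `EK 5 S` for `S ≃* alternatingGroup (Fin 6)`.

`2.A_6` and `3.A_6` have faithful characters of degree divisible by `5` (defect zero), so the module is one of `A_6`; there are
`36` Sylow `5`-subgroups, two of them generate, so `|V| ≤ 5 ^ 4`; the elements `(012)`, `(345)`, `(012)(345)` all have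
fixed vectors, `(012)` and `(345)` have no common one: impossible in dimension four.
-/

set_option autoImplicit false

namespace Cfsg.Agent.H354.RIM.Six

open Cfsg Cfsg.Agent.H88.RIM Cfsg.Agent.H665.RIM
open scoped Pointwise commutatorElement

universe u v

section mod

variable {V : Type v} [AddCommGroup V] [Finite V] [DistribMulAction A6 V]

theorem xab_comm : xa * xb = xb * xa := Subtype.ext (show ga * gb = gb * ga by decide +kernel)

theorem order_xa : orderOf xa = 3 :=
  orderOf_eq_prime (Subtype.ext (show ga ^ 3 = 1 by decide +kernel)) (fun h => absurd (congrArg Subtype.val h)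
    (show ga ≠ 1 by decide +kernel))

theorem order_xb : orderOf xb = 3 :=
  orderOf_eq_prime (Subtype.ext (show gb ^ 3 = 1 by decide +kernel)) (fun h => absurd (congrArg Subtype.val h)
    (show gb ≠ 1 by decide +kernel))

/-- the vectors fixed by `y` -/
abbrev cv (V : Type v) [AddCommGroup V] [DistribMulAction A6 V] (y : A6) : AddSubgroup V := fxV V (Subgroup.zpowers y)

omit [Finite V] in
theorem mem_cv {y : A6} {v : V} : v ∈ cv V y ↔ y • v = v := by
  constructor
  · intro h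
    exact h y (Subgroup.mem_zpowers y)
  · intro h g hg
    have h7 : Subgroup.zpowers y ≤ MulAction.stabilizer A6 v := by
      rw [Subgroup.zpowers_le]
      exact h
    exact h7 hg

/-- no common fixed vector -/
theorem eq_zero_of (h0 : ∀ v : V, (∀ h : A6, h • v = v) → v = 0)
    (horb : ∀ v : V, ¬ 5 ∣ (MulAction.stabilizer A6 v).index) {v : V} (ha : xa • v = v) (hb : xb • v = v) : v = 0 := by
  apply h0
  set M := MulAction.stabilizer A6 v with hM
  have h1 := M.card_mul_index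
  rw [card_A6] at h1
  have h2 : 5 ∣ Nat.card M := by
    have h3 : 5 ∣ Nat.card M * M.index := by rw [h1]; norm_num
    exact ((Nat.Prime.dvd_mul (by norm_num)).1 h3).resolve_right (horb v)
  obtain ⟨x, hx⟩ := exists_prime_orderOf_dvd_card' 5 h2
  have hx5 : ((x : A6) : Equiv.Perm (Fin 6)) ^ 5 = 1 := by
    have h3 : x ^ 5 = 1 := by rw [← hx]; exact pow_orderOf_eq_one x
    exact congrArg (fun z : M => ((z : A6) : Equiv.Perm (Fin 6))) h3
  have hx1 : ((x : A6) : Equiv.Perm (Fin 6)) ≠ 1 := by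
    intro h3
    have h4 : x = 1 := Subtype.ext (Subtype.ext h3)
    rw [h4, orderOf_one] at hx
    norm_num at hx
  have h3 := alt_of (G := M.map (alternatingGroup (Fin 6)).subtype) ⟨xa, ha, rfl⟩ ⟨xb, hb, rfl⟩
    ⟨(x : A6), x.2, rfl⟩ hx5 hx1
  intro g
  obtain ⟨y, hy, hyx⟩ := h3 g.2
  have : y = g := Subtype.ext hyx
  exact this ▸ hy

/-- `|C_V(y)| ≡ 1` modulo three -/
theorem card_cv_mod {y z : A6} (hyz : y * z = z * y) (hz : orderOf z = 3)
    (h : ∀ v : V, y • v = v → z • v = v → v = 0) : Nat.card (cv V y) ≡ 1 [MOD 3] := by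
  have hinv : ∀ g ∈ Subgroup.zpowers z, ∀ v ∈ cv V y, g • v ∈ cv V y := by
    intro g hg v hv
    obtain ⟨i, rfl⟩ := Subgroup.mem_zpowers_iff.1 hg
    rw [mem_cv] at hv ⊢
    have h1 : y * z ^ i = z ^ i * y := (Commute.zpow_right hyz i)
    rw [smul_smul, h1, ← smul_smul, hv]
  let _ : MulAction (Subgroup.zpowers z) (cv V y) :=
    { smul := fun g v => ⟨(g : A6) • (v : V), hinv g g.2 v v.2⟩
      one_smul := fun v => Subtype.ext (one_smul A6 (v : V))
      mul_smul := fun a b v => Subtype.ext (mul_smul (a : A6) (b : A6) (v : V)) }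
  have : Fact (Nat.Prime 3) := ⟨by norm_num⟩
  have hpg : IsPGroup 3 (Subgroup.zpowers z) := IsPGroup.of_card (n := 1) (by rw [Nat.card_zpowers, hz, pow_one])
  have h1 := hpg.card_modEq_card_fixedPoints (cv V y)
  have h2 : Nat.card (MulAction.fixedPoints (Subgroup.zpowers z) (cv V y)) = 1 := by
    rw [Nat.card_eq_one_iff_unique]
    refine ⟨⟨fun a b => ?_⟩, ⟨⟨0, fun g => Subtype.ext (smul_zero (g : A6))⟩⟩⟩
    have key : ∀ a : MulAction.fixedPoints (Subgroup.zpowers z) (cv V y), ((a : cv V y) : V) = 0 := by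
      intro a
      refine h _ (mem_cv.1 (a : cv V y).2) ?_
      exact congrArg Subtype.val (a.2 ⟨z, Subgroup.mem_zpowers z⟩)
    exact Subtype.ext (Subtype.ext ((key a).trans (key b).symm))
  rwa [h2] at h1

/-- **The module side.** -/
theorem core (hV : ∀ v : V, 5 • v = 0) (h0 : ∀ v : V, (∀ h : A6, h • v = v) → v = 0)
    (hf : ∀ h : A6, (∀ v : V, h • v = v) → h = 1)
    (horb : ∀ v : V, ¬ 5 ∣ (MulAction.stabilizer A6 v).index) : False := by
  obtain ⟨d, hd⟩ := card_pow hV
  have h2 := (index_le_card_sylow (V := V) P5 horb).trans_lt card_sylow_lt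
  have h3 : (fxV V (P5 : Subgroup A6)).index ∣ 5 ^ d := hd ▸ AddSubgroup.index_dvd_card _
  obtain ⟨c, -, hc⟩ := (Nat.dvd_prime_pow (by norm_num : Nat.Prime 5)).1 h3
  rw [hc] at h2
  have h4 : c < 3 := (Nat.pow_lt_pow_iff_right (by norm_num : 1 < 5)).1 (h2.trans_eq (by norm_num))
  have h5 := card_le_pow (V := V) h0 (P5 : Subgroup A6) (k := 1) (fun _ => xh) (by
    rw [ciSup_const]
    exact sup_eq_top)
  rw [hc, hd, ← pow_mul] at h5
  have h6 := (Nat.pow_le_pow_iff_right (by norm_num : 1 < 5)).1 h5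
  have hz : ∀ v : V, xa • v = v → xb • v = v → v = 0 := fun v ha hb => eq_zero_of h0 horb ha hb
  -- the dimensions
  have dims : ∀ y : A6, (∃ v : V, v ≠ 0 ∧ y • v = v) → Nat.card (cv V y) ≡ 1 [MOD 3] →
      ∃ i, 2 ≤ i ∧ Nat.card (cv V y) = 5 ^ i := by
    intro y ⟨v, hv0, hv⟩ hmod
    have h7 : Nat.card (cv V y) ∣ 5 ^ d := hd ▸ AddSubgroup.card_addSubgroup_dvd_card _
    obtain ⟨i, -, hi⟩ := (Nat.dvd_prime_pow (by norm_num : Nat.Prime 5)).1 h7
    refine ⟨i, ?_, hi⟩
    by_contra hcon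
    have h8 : i = 0 ∨ i = 1 := by omega
    rcases h8 with rfl | rfl
    · rw [pow_zero] at hi
      have h9 := (Nat.card_eq_one_iff_unique.1 hi).1
      exact hv0 (congrArg Subtype.val (h9.elim ⟨v, mem_cv.2 hv⟩ 0))
    · rw [hi] at hmod
      exact absurd hmod (by decide)
  obtain ⟨i, hi2, hi⟩ := dims xa (fixed_a hV hf) (card_cv_mod xab_comm order_xb hz)
  obtain ⟨j, hj2, hj⟩ := dims xb (fixed_b hV hf) (card_cv_mod xab_comm.symm order_xa fun v h1 h2 => hz v h2 h1)
  let f : cv V xa × cv V xb → V := fun x => (x.1 : V) + (x.2 : V)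
  have hfi : Function.Injective f := by
    rintro ⟨x, y⟩ ⟨x', y'⟩ h
    have h7 : (x : V) + y = x' + y' := h
    have h8 : (x : V) - x' = y' - y := by
      rw [sub_eq_sub_iff_add_eq_add, h7, add_comm]
    have h9 : (x : V) - x' = 0 := by
      apply hz
      · exact mem_cv.1 (AddSubgroup.sub_mem _ x.2 x'.2)
      · rw [h8]
        exact mem_cv.1 (AddSubgroup.sub_mem _ y'.2 y.2)
    have h10 : (y' : V) - y = 0 := by rw [← h8, h9]
    exact Prod.ext (Subtype.ext (sub_eq_zero.1 h9)) (Subtype.ext (sub_eq_zero.1 h10).symm)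
  have hcard : Nat.card (cv V xa × cv V xb) = 5 ^ (i + j) := by rw [Nat.card_prod, hi, hj, pow_add]
  have h7 : 5 ^ (i + j) ≤ 5 ^ d := by
    rw [← hcard, ← hd]
    exact Nat.card_le_card_of_injective f hfi
  have h8 := (Nat.pow_le_pow_iff_right (by norm_num : 1 < 5)).1 h7
  have h9 : i + j = d := by omega
  have hfs : Function.Surjective f := by
    have h10 : Nat.card (cv V xa × cv V xb) = Nat.card V := by rw [hcard, hd, h9]
    exact ((Nat.bijective_iff_injective_and_card f).2 ⟨hfi, h10⟩).2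
  obtain ⟨w, hw0, hw⟩ := fixed_ab hV hf
  obtain ⟨⟨x, y⟩, hxy⟩ := hfs w
  have hxy' : (x : V) + y = w := hxy
  have hxa : xa • (x : V) = x := mem_cv.1 x.2
  have hyb : xb • (y : V) = y := mem_cv.1 y.2
  have h10 : xb • (x : V) ∈ cv V xa := by
    rw [mem_cv, smul_smul, xab_comm, ← smul_smul, hxa]
  have h11 : xa • (y : V) ∈ cv V xb := by
    rw [mem_cv, smul_smul, ← xab_comm, ← smul_smul, hyb]
  have h12 : f (⟨xb • (x : V), h10⟩, ⟨xa • (y : V), h11⟩) = f (x, y) := by
    show xb • (x : V) + xa • (y : V) = x + y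
    rw [hxy', ← hw, ← hxy', smul_add]
    congr 1
    · rw [xab_comm, ← smul_smul, hxa]
    · rw [← smul_smul, hyb]
  have h13 := hfi h12
  have h14 : xb • (x : V) = x := congrArg (fun z : cv V xa × cv V xb => (z.1 : V)) h13
  have h15 : xa • (y : V) = y := congrArg (fun z : cv V xa × cv V xb => (z.2 : V)) h13
  apply hw0
  rw [← hxy', hz x hxa h14, hz y h15 hyb, add_zero]

end mod

/-! ### the covers of order two and three -/

/-- an involution inverting `gx` -/
def gt : Equiv.Perm (Fin 6) := ⟨![0, 4, 3, 2, 1, 5], ![0, 4, 3, 2, 1, 5], by decide, by decide⟩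

/-- an element of order four -/
def gq : Equiv.Perm (Fin 6) := ⟨![1, 2, 3, 0, 5, 4], ![3, 0, 1, 2, 5, 4], by decide, by decide⟩

def xt : A6 := ⟨gt, by rw [Equiv.Perm.mem_alternatingGroup]; decide +kernel⟩
def xq : A6 := ⟨gq, by rw [Equiv.Perm.mem_alternatingGroup]; decide +kernel⟩

theorem cent_aux : ∀ g : Equiv.Perm (Fin 6), g * gx = gx * g → ∃ i : Fin 5, g = gx ^ (i : ℕ) := by decide +kernel

theorem norm_aux : ∀ g : Equiv.Perm (Fin 6), Equiv.Perm.sign g = 1 → (∃ i : Fin 5, g * gx * g⁻¹ = gx ^ (i : ℕ)) →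
    ∃ a : Fin 2, ∃ i : Fin 5, g = gt ^ (a : ℕ) * gx ^ (i : ℕ) := by decide +kernel

theorem exists_fin {z : A6} (h : z ∈ Subgroup.zpowers xx) : ∃ i : Fin 5, z = xx ^ (i : ℕ) := by
  obtain ⟨k, rfl⟩ := Subgroup.mem_zpowers_iff.1 h
  have h1 : (k % 5).toNat < 5 := by omega
  refine ⟨⟨(k % 5).toNat, h1⟩, ?_⟩
  have h2 : (((k % 5).toNat : ℕ) : ℤ) = k % 5 := Int.toNat_of_nonneg (by omega)
  show xx ^ k = xx ^ (k % 5).toNat
  rw [← zpow_natCast, h2]
  have h3 := zpow_mod_orderOf xx k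
  rw [orderOf_xx] at h3
  exact h3.symm

theorem card_cent : Nat.card (Subgroup.centralizer ({xx} : Set A6)) = 5 * 1 := by
  have h : Subgroup.centralizer ({xx} : Set A6) = Subgroup.zpowers xx := by
    apply le_antisymm
    · intro g hg
      rw [Subgroup.mem_centralizer_singleton_iff] at hg
      obtain ⟨i, hi⟩ := cent_aux (g : Equiv.Perm (Fin 6)) (congrArg Subtype.val hg)
      have : g = xx ^ (i : ℕ) := Subtype.ext hi
      rw [this]
      exact Subgroup.pow_mem _ (Subgroup.mem_zpowers xx) _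
    · rw [Subgroup.zpowers_le, Subgroup.mem_centralizer_singleton_iff]
  rw [h, card_zx]

theorem card_norm : Nat.card (Subgroup.normalizer ((Subgroup.zpowers xx : Subgroup A6) : Set A6)) = 2 * (5 * 1) := by
  set N := Subgroup.normalizer ((Subgroup.zpowers xx : Subgroup A6) : Set A6) with hN
  have ht : xt ∈ N := by
    refine Subgroup.mem_normalizer_fintype fun n hn => ?_
    obtain ⟨i, rfl⟩ := exists_fin hn
    have h1 : xt * xx ^ (i : ℕ) * xt⁻¹ = (xx ^ (i : ℕ))⁻¹ := by
      have h2 : xt * xx * xt⁻¹ = xx⁻¹ := Subtype.ext (show gt * gx * gt⁻¹ = gx⁻¹ by decide +kernel)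
      rw [← conj_pow, h2, inv_pow]
    rw [h1]
    exact inv_mem (Subgroup.pow_mem _ (Subgroup.mem_zpowers xx) _)
  have hx : xx ∈ N := Subgroup.le_normalizer (Subgroup.mem_zpowers xx)
  let f : Fin 2 × Fin 5 → N := fun a => ⟨xt ^ (a.1 : ℕ) * xx ^ (a.2 : ℕ), N.mul_mem (N.pow_mem ht _) (N.pow_mem hx _)⟩
  have hf : Function.Bijective f := by
    constructor
    · have key : ∀ a b : Fin 2 × Fin 5, gt ^ (a.1 : ℕ) * gx ^ (a.2 : ℕ) = gt ^ (b.1 : ℕ) * gx ^ (b.2 : ℕ) → a = b := by
        decide +kernel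
      intro a b h
      exact key a b (congrArg (fun z : N => ((z : A6) : Equiv.Perm (Fin 6))) h)
    · rintro ⟨g, hg⟩
      have h1 : g * xx * g⁻¹ ∈ Subgroup.zpowers xx :=
        (Subgroup.mem_normalizer_iff.1 hg xx).1 (Subgroup.mem_zpowers xx)
      obtain ⟨i, hi⟩ := exists_fin h1
      obtain ⟨a, j, h2⟩ := norm_aux (g : Equiv.Perm (Fin 6)) (Equiv.Perm.mem_alternatingGroup.1 g.2)
        ⟨i, congrArg Subtype.val hi⟩
      exact ⟨(a, j), Subtype.ext (Subtype.ext h2.symm)⟩
  rw [← Nat.card_congr (Equiv.ofBijective f hf)]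
  simp

/-- representatives of five classes of elements of odd order -/
def cl2 : Fin 5 → A6 := ![1, xa, xa * xb, xx, xx ^ 2]

/-- representatives of five classes of elements of order prime to three -/
def cl3 : Fin 5 → A6 := ![1, xt, xq, xx, xx ^ 2]

theorem cl2_inj : ∀ i j, IsConj (cl2 i) (cl2 j) → i = j := by
  have key : ∀ c : Equiv.Perm (Fin 6), Equiv.Perm.sign c = 1 → ∀ i j : Fin 5,
      c * (cl2 i : Equiv.Perm (Fin 6)) * c⁻¹ = (cl2 j : Equiv.Perm (Fin 6)) → i = j := by decide +kernel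
  intro i j h
  obtain ⟨c, hc⟩ := isConj_iff.1 h
  exact key c (Equiv.Perm.mem_alternatingGroup.1 c.2) i j (congrArg Subtype.val hc)

theorem cl3_inj : ∀ i j, IsConj (cl3 i) (cl3 j) → i = j := by
  have key : ∀ c : Equiv.Perm (Fin 6), Equiv.Perm.sign c = 1 → ∀ i j : Fin 5,
      c * (cl3 i : Equiv.Perm (Fin 6)) * c⁻¹ = (cl3 j : Equiv.Perm (Fin 6)) → i = j := by decide +kernel
  intro i j h
  obtain ⟨c, hc⟩ := isConj_iff.1 h
  exact key c (Equiv.Perm.mem_alternatingGroup.1 c.2) i j (congrArg Subtype.val hc)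

theorem nb_two : NB 5 2 A6 := by
  refine Cfsg.Agent.H306.RIM.nb_of_dz (by norm_num) (by rw [card_A6]; norm_num) orderOf_xx card_cent card_norm
    cl2 ?_ cl2_inj (by norm_num)
  intro i
  have h : ∀ i : Fin 5, (cl2 i : Equiv.Perm (Fin 6)) ^ 15 = 1 := by decide +kernel
  have h1 : orderOf (cl2 i) ∣ 15 := orderOf_dvd_of_pow_eq_one (Subtype.ext (h i))
  exact Nat.Coprime.coprime_dvd_left h1 (by norm_num)

theorem nb_three : NB 5 3 A6 := by
  refine Cfsg.Agent.H306.RIM.nb_of_dz (by norm_num) (by rw [card_A6]; norm_num) orderOf_xx card_cent card_norm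
    cl3 ?_ cl3_inj (by norm_num)
  intro i
  have h : ∀ i : Fin 5, (cl3 i : Equiv.Perm (Fin 6)) ^ 20 = 1 := by decide +kernel
  have h1 : orderOf (cl3 i) ∣ 20 := orderOf_dvd_of_pow_eq_one (Subtype.ext (h i))
  exact Nat.Coprime.coprime_dvd_left h1 (by norm_num)

theorem noPEx : NoPEx 5 A6 := by
  intro V _ _ _ hV hnt hf hirr horb
  refine core hV ?_ hf horb
  intro v hv
  let W : AddSubgroup V :=
    { carrier := {w | ∀ h : A6, h • w = w}
      zero_mem' := fun h => smul_zero h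
      add_mem' := fun {a b} ha hb h => by rw [smul_add, ha h, hb h]
      neg_mem' := fun {a} ha h => by rw [smul_neg, ha h] }
  have hvW : v ∈ W := hv
  rcases hirr W (fun h w hw => by
      intro h'
      have h1 : h • w = w := hw h
      rw [h1]; exact hw h') with hW | hW
  · rw [hW] at hvW
    exact AddSubgroup.mem_bot.1 hvW
  · exfalso
    have h1 : xa = 1 := hf xa fun w => by
      have : w ∈ W := by rw [hW]; exact AddSubgroup.mem_top w
      exact this xa
    exact absurd (congrArg Subtype.val h1) (show ga ≠ 1 by decide +kernel)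

/-- **The module side of `A_6` at `5`** -/
theorem ek_alt6 : EK 5 A6 :=
  Cfsg.Agent.H175.RIM.ek_of_nb (fun E _ _ π hπ hc hE _ =>
    Cfsg.Agent.H306.RIM.ker_dvd (Cfsg.Agent.S2116.result 6 (Or.inl rfl)) (MulEquiv.refl A6) π hπ hc hE)
    nb_two nb_three noPEx

end Cfsg.Agent.H354.RIM.Six
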