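import Cfsg.Agent.H354.RIM.AltEight
import Cfsg.Agent.H325.RIM.Surv

/-!
# S4816: the row `A_8` at `p = 5` (helper354)
-/

set_option autoImplicit false

namespace Cfsg.Agent.H354.RIM

open Cfsg.Agent.H665.RIM Cfsg.Agent.H325.RIM

universe u

/-- field `a8` of `RowsKill` -/
theorem row_a8 : KillRow.{u} 5 (.alt 8) := by
  intro S _ _ h
  exact Or.inr (ek_alt8 h.real.some)

end Cfsg.Agent.H354.RIM
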