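import Cfsg.Agent.H354.RIM.AltSix
import Cfsg.Agent.H325.RIM.EKCongr
import Cfsg.Agent.H325.RIM.Surv

/-!
# S4816: the row `A_6` at `p = 5` (helper354)
-/

set_option autoImplicit false

namespace Cfsg.Agent.H354.RIM

open Cfsg.Agent.H665.RIM Cfsg.Agent.H325.RIM

universe u

/-- field `a6` of `RowsKill` -/
theorem row_a6 : KillRow.{u} 5 (.alt 6) := by
  intro S _ _ h
  exact Or.inr (EK.congr h.real.some Six.ek_alt6)

end Cfsg.Agent.H354.RIM
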